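import Groth.Prelude.Def_ModelsG
import Groth.Agent.S1591
import Groth.Agent.S1592

/-!
# Base change of at-worst-nodal families and of semistable models
-/

set_option autoImplicit false
universe u
open CategoryTheory CategoryTheory.Limits AlgebraicGeometry

namespace Groth.Agent.Sga7.H734.NodalBC

/-- At-worst-nodal families are stable under base change. -/
theorem isNodalFamily_of_isPullback {X S X' S' : Scheme.{u}} {p : X ⟶ S} {p' : X' ⟶ S'} {a : X' ⟶ X}
    {b : S' ⟶ S} (h : IsPullback a p' p b) (hp : Curv2.IsNodalFamily p) : Curv2.IsNodalFamily p' := by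
  have h1 := hp.1
  have h2 := hp.2.1
  obtain ⟨U, ⟨-, hU⟩, hbc⟩ := Groth.Agent.S1591.result p
  have hU' : U = ⊤ := top_unique (hU ⊤ (Groth.Agent.S1592.result p hp _))
  subst hU'
  have h3 := (hbc S' b).1
  let e : X' ≅ pullback p b := h.isoPullback
  have he : e.hom ≫ pullback.snd p b = p' := h.isoPullback_hom_snd
  have h4 : pullback.fst p b ⁻¹ᵁ (⊤ : X.Opens) = ⊤ := rfl
  rw [h4] at h3
  have h5 : p' = (e.hom ≫ (Scheme.topIso _).inv) ≫ ((⊤ : (pullback p b).Opens).ι ≫ pullback.snd p b) := by
    rw [← he, Category.assoc]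
    congr 1
    rw [← Category.assoc]
    have : (Scheme.topIso (pullback p b)).inv ≫ (⊤ : (pullback p b).Opens).ι = 𝟙 _ :=
      (Scheme.topIso (pullback p b)).inv_hom_id
    rw [this, Category.id_comp]
  rw [h5]
  exact Groth.Agent.S1592.result _ h3 _

variable {R R' : Type u} [CommRing R] [IsDomain R] [IsDiscreteValuationRing R] [CommRing R'] [IsDomain R']
  [IsDiscreteValuationRing R']

/-- Semistable reduction is inherited by extensions of discrete valuation rings. -/
theorem hasSemistableReduction_bc (φ : R →+* R') (ψ : FractionRing R →+* FractionRing R')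
    (h : ψ.comp (algebraMap R (FractionRing R)) = (algebraMap R' (FractionRing R')).comp φ)
    {C C' : Scheme.{u}} {f : C ⟶ Spec (CommRingCat.of (FractionRing R))}
    {f' : C' ⟶ Spec (CommRingCat.of (FractionRing R'))} {q : C' ⟶ C}
    (hq : IsPullback q f' f (Spec.map (CommRingCat.ofHom ψ))) (hC : Models.HasSemistableReduction R C f) :
    Models.HasSemistableReduction R' C' f' := by
  obtain ⟨X, p, ⟨h1, h2, h3, g, hg⟩, h4, h5⟩ := hC
  let b : Spec (CommRingCat.of R') ⟶ Spec (CommRingCat.of R) := Spec.map (CommRingCat.ofHom φ)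
  have hb : IsPullback (pullback.fst p b) (pullback.snd p b) p b := IsPullback.of_hasPullback _ _
  have hbig : IsPullback (q ≫ g) f' p (Spec.map (CommRingCat.ofHom (algebraMap R' (FractionRing R'))) ≫ b) := by
    have h6 := hq.paste_horiz hg
    have h7 : Spec.map (CommRingCat.ofHom ψ) ≫ Spec.map (CommRingCat.ofHom (algebraMap R (FractionRing R))) =
        Spec.map (CommRingCat.ofHom (algebraMap R' (FractionRing R'))) ≫ b := by
      rw [← Spec.map_comp, ← Spec.map_comp, ← CommRingCat.ofHom_comp, ← CommRingCat.ofHom_comp, h]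
    rwa [h7] at h6
  let g' : C' ⟶ pullback p b := pullback.lift (q ≫ g)
    (f' ≫ Spec.map (CommRingCat.ofHom (algebraMap R' (FractionRing R')))) (by
      rw [hbig.w, Category.assoc])
  have hg' : IsPullback g' f' (pullback.snd p b)
      (Spec.map (CommRingCat.ofHom (algebraMap R' (FractionRing R')))) := by
    refine IsPullback.of_right (h₁₂ := pullback.fst p b) (h₂₂ := b) (v₁₃ := p) ?_ (pullback.lift_snd _ _ _) hb
    rw [pullback.lift_fst]
    exact hbig
  exact ⟨pullback p b, pullback.snd p b, ⟨inferInstance, inferInstance, inferInstance, g', hg'⟩,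
    inferInstance, isNodalFamily_of_isPullback hb h5⟩

theorem hasSemistableReduction_of_iso {C C' : Scheme.{u}} {f : C ⟶ Spec (CommRingCat.of (FractionRing R))}
    {f' : C' ⟶ Spec (CommRingCat.of (FractionRing R))} (e : C' ≅ C) (he : e.hom ≫ f = f')
    (hC : Models.HasSemistableReduction R C f) : Models.HasSemistableReduction R C' f' := by
  obtain ⟨X, p, ⟨h1, h2, h3, g, hg⟩, h4, h5⟩ := hC
  refine ⟨X, p, ⟨h1, h2, h3, e.hom ≫ g, ?_⟩, h4, h5⟩
  exact IsPullback.of_iso hg e.symm (Iso.refl _) (Iso.refl _) (Iso.refl _) (by simp) (by simp [← he])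
    (by simp) (by simp)

end Groth.Agent.Sga7.H734.NodalBC
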