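import Groth.Agent.Sga7.H734.IntExt
import Groth.Agent.Sga7.H734.NodalBC
import Groth.Agent.Models.H57.GeoInt

/-!
# Common semistable reduction of finitely many curves over a strictly henselian discrete valuation ring
-/

set_option autoImplicit false
universe u
open CategoryTheory CategoryTheory.Limits AlgebraicGeometry

namespace Groth.Agent.Sga7.H734.Common

open IsLocalRing

/-- The statement S3333. -/
def S3333Stmt : Prop := ∀ (R : Type u) [CommRing R] [IsDomain R] [IsDiscreteValuationRing R]
    (C : Scheme.{u}) (f : C ⟶ Spec (CommRingCat.of (FractionRing R)))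
    (_ : Curve.IsSmoothProperCurve (FractionRing R) C f) (_ : IsIso f.appTop),
    ∃ (R' : Type u) (_ : CommRing R') (_ : IsDomain R') (_ : IsDiscreteValuationRing R')
      (φ : R →+* R') (ψ : FractionRing R →+* FractionRing R'),
      Models.IsDVRExtension R φ ∧
      ψ.comp (algebraMap R (FractionRing R)) = (algebraMap R' (FractionRing R')).comp φ ∧
      Models.IsFiniteSeparable ψ ∧
      Models.HasSemistableReduction R' (pullback f (Spec.map (CommRingCat.ofHom ψ)))
        (pullback.snd f (Spec.map (CommRingCat.ofHom ψ)))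

/-- A finite separable extension of `K₁` with a strictly henselian discrete valuation ring dominating `R`. -/
structure Stage {R K₁ : Type u} [CommRing R] [Field K₁] (ρ : R →+* K₁) where
  R' : Type u
  [cr : CommRing R']
  [dom : IsDomain R']
  [dvr : IsDiscreteValuationRing R']
  [hens : HenselianLocalRing R']
  [sep : IsSepClosed (ResidueField R')]
  φ : R →+* R'
  ψ : K₁ →+* FractionRing R'
  loc : IsLocalHom φ
  comm : ψ.comp ρ = (algebraMap R' (FractionRing R')).comp φ
  fs : Models.IsFiniteSeparable ψ

attribute [instance] Stage.cr Stage.dom Stage.dvr Stage.hens Stage.sep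

theorem isFiniteSeparable_comp {K L M : Type u} [Field K] [Field L] [Field M] {ψ : K →+* L} {θ : L →+* M}
    (h1 : Models.IsFiniteSeparable ψ) (h2 : Models.IsFiniteSeparable θ) : Models.IsFiniteSeparable (θ.comp ψ) := by
  let _ : Algebra K L := ψ.toAlgebra
  let _ : Algebra L M := θ.toAlgebra
  let _ : Algebra K M := (θ.comp ψ).toAlgebra
  have : IsScalarTower K L M := IsScalarTower.of_algebraMap_eq fun _ => rfl
  obtain ⟨h3, h4⟩ := h1
  obtain ⟨h5, h6⟩ := h2
  exact ⟨Module.Finite.trans (R := K) L M, Algebra.IsSeparable.trans K L M⟩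

theorem isFiniteSeparable_of_surjective {K L : Type u} [Field K] [Field L] {ψ : K →+* L}
    (h : Function.Surjective ψ) : Models.IsFiniteSeparable ψ := by
  let _ : Algebra K L := ψ.toAlgebra
  have hs : Function.Surjective (algebraMap K L) := h
  refine ⟨Module.Finite.of_surjective (Algebra.linearMap K L) hs, ⟨fun x => ?_⟩⟩
  obtain ⟨y, rfl⟩ := hs x
  exact isSeparable_algebraMap y

theorem strictlyHenselian_of_hom {R K R' K' : Type u} [CommRing R] [IsDomain R] [IsDiscreteValuationRing R]
    [HenselianLocalRing R] [IsSepClosed (ResidueField R)]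
    [Field K] [Algebra R K] [IsFractionRing R K] [CommRing R'] [IsDomain R'] [IsDiscreteValuationRing R']
    [Field K'] [Algebra R' K'] [IsFractionRing R' K'] (φ : R →+* R') (ψ : K →+* K') (hφ : IsLocalHom φ)
    (h : ψ.comp (algebraMap R K) = (algebraMap R' K').comp φ) (hfs : Models.IsFiniteSeparable ψ) :
    ∃ _ : HenselianLocalRing R', IsSepClosed (ResidueField R') := by
  let _ : Algebra R R' := φ.toAlgebra
  let _ : Algebra K K' := ψ.toAlgebra
  let _ : Algebra R K' := ((algebraMap R' K').comp φ).toAlgebra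
  have t1 : IsScalarTower R K K' := IsScalarTower.of_algebraMap_eq fun x => (RingHom.congr_fun h x).symm
  have t2 : IsScalarTower R R' K' := IsScalarTower.of_algebraMap_eq fun x => rfl
  obtain ⟨hf1, hf2⟩ := hfs
  have hloc' : IsLocalHom (algebraMap R R') := hφ
  exact IntExt.strictlyHenselian R K R' K'

/-- Transitivity of cartesian squares. -/
theorem exists_isPullback {S S' S'' C C' : Scheme.{u}} {b : S' ⟶ S} {b' : S'' ⟶ S'} {f : C ⟶ S} {f' : C' ⟶ S''}
    {q : C' ⟶ C} (h : IsPullback q f' f (b' ≫ b)) :
    ∃ q' : C' ⟶ pullback f b, q' ≫ pullback.fst f b = q ∧ IsPullback q' f' (pullback.snd f b) b' := by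
  refine ⟨pullback.lift q (f' ≫ b') (by rw [h.w, Category.assoc]), pullback.lift_fst _ _ _, ?_⟩
  refine IsPullback.of_right (h₁₂ := pullback.fst f b) (h₂₂ := b) (v₁₃ := f) ?_ (pullback.lift_snd _ _ _)
    (IsPullback.of_hasPullback f b)
  rw [pullback.lift_fst]
  exact h

theorem spec_comp {R S T : Type u} [CommRing R] [CommRing S] [CommRing T] (ψ : R →+* S) (θ : S →+* T) :
    Spec.map (CommRingCat.ofHom (θ.comp ψ)) = Spec.map (CommRingCat.ofHom θ) ≫ Spec.map (CommRingCat.ofHom ψ) := by
  rw [← Spec.map_comp, ← CommRingCat.ofHom_comp]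

variable {R K₁ : Type u} [CommRing R] [Field K₁] {ρ : R →+* K₁}

/-- A common semistable reduction. -/
theorem exists_stage (h33 : S3333Stmt.{u}) (s₀ : Stage ρ) (n : ℕ) : ∀ (C : Fin n → Scheme.{u})
    (f : ∀ i, C i ⟶ Spec (CommRingCat.of K₁)) (_ : ∀ i, Curve.IsSmoothProperCurve K₁ (C i) (f i))
    (_ : ∀ i, IsIso (f i).appTop),
    ∃ s : Stage ρ, ∀ (i : Fin n) (C' : Scheme.{u}) (f' : C' ⟶ Spec (CommRingCat.of (FractionRing s.R')))
      (q : C' ⟶ C i), IsPullback q f' (f i) (Spec.map (CommRingCat.ofHom s.ψ)) →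
      Models.HasSemistableReduction s.R' C' f' := by
  induction n with
  | zero => intro C f _ _; exact ⟨s₀, fun i => i.elim0⟩
  | succ n ih =>
    intro C f hC h0
    obtain ⟨s, hs⟩ := ih (fun i => C i.castSucc) (fun i => f i.castSucc) (fun i => hC _) (fun i => h0 _)
    obtain ⟨h1, h2⟩ := Models.H57.GeoInt.isSmoothProperCurve_pullback (f (Fin.last n)) (hC _) (h0 _) s.ψ
    obtain ⟨R'', _, _, _, φ', ψ', ⟨hinj, hloc⟩, hcomm, hfs, hss⟩ := h33 s.R' _ _ h1 h2
    obtain ⟨i1, i2⟩ := strictlyHenselian_of_hom φ' ψ' hloc hcomm hfs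
    have hsl := s.loc
    let s' : Stage ρ :=
      { R' := R''
        φ := φ'.comp s.φ
        ψ := ψ'.comp s.ψ
        loc := RingHom.isLocalHom_comp _ _
        comm := by
          rw [RingHom.comp_assoc, s.comm, ← RingHom.comp_assoc, hcomm, RingHom.comp_assoc]
        fs := isFiniteSeparable_comp s.fs hfs }
    refine ⟨s', fun i => ?_⟩
    refine Fin.lastCases ?_ (fun i => ?_) i
    · intro C' f' q hq
      change IsPullback q f' _ (Spec.map (CommRingCat.ofHom (ψ'.comp s.ψ))) at hq
      rw [spec_comp] at hq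
      obtain ⟨q', -, hq'⟩ := exists_isPullback hq
      exact NodalBC.hasSemistableReduction_of_iso hq'.isoPullback hq'.isoPullback_hom_snd hss
    · intro C' f' q hq
      change IsPullback q f' _ (Spec.map (CommRingCat.ofHom (ψ'.comp s.ψ))) at hq
      rw [spec_comp] at hq
      obtain ⟨q', -, hq'⟩ := exists_isPullback hq
      exact NodalBC.hasSemistableReduction_bc φ' ψ' hcomm hq'
        (hs i _ _ _ (IsPullback.of_hasPullback _ _))

/-- The initial stage. -/
theorem exists_stage₀ (R K K₁ : Type u) [CommRing R] [IsDomain R] [IsDiscreteValuationRing R] [HenselianLocalRing R]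
    [IsSepClosed (ResidueField R)] [Field K] [Algebra R K] [IsFractionRing R K] [Field K₁] [Algebra K K₁]
    [FiniteDimensional K K₁] [Algebra.IsSeparable K K₁] :
    Nonempty (Stage ((algebraMap K K₁).comp (algebraMap R K))) := by
  let _ : Algebra R K₁ := ((algebraMap K K₁).comp (algebraMap R K)).toAlgebra
  have : IsScalarTower R K K₁ := IsScalarTower.of_algebraMap_eq fun x => rfl
  have hR : EtCoh.IsStrictlyHenselianLocalRing R := ⟨inferInstance, inferInstance⟩
  have hloc : IsLocalRing (integralClosure R K₁) := Sga4h.TameExt.isLocalRing R K₁ hR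
  have hdvr : IsDiscreteValuationRing (integralClosure R K₁) := Sga4h.TameExt.isDiscreteValuationRing R K K₁ hR
  have hfr : IsFractionRing (integralClosure R K₁) K₁ := Sga4h.TameExt.isFractionRing R K K₁
  obtain ⟨h3, h4, h5⟩ := Groth.Agent.S1964.result R (integralClosure R K₁)
  have h6 := (h5 inferInstance).1
  let e : FractionRing (integralClosure R K₁) ≃ₐ[integralClosure R K₁] K₁ :=
    FractionRing.algEquiv (integralClosure R K₁) K₁
  exact ⟨{
    R' := integralClosure R K₁
    φ := algebraMap R (integralClosure R K₁)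
    ψ := e.symm.toRingEquiv.toRingHom
    loc := h4
    comm := by
      ext r
      apply e.injective
      change e (e.symm (algebraMap K K₁ (algebraMap R K r))) =
        e (algebraMap (integralClosure R K₁) _ (algebraMap R (integralClosure R K₁) r))
      rw [e.apply_symm_apply, e.commutes]
      rfl
    fs := isFiniteSeparable_of_surjective e.symm.surjective }⟩

end Groth.Agent.Sga7.H734.Common
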