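import Groth.Agent.Sga4h.TameExt
import Groth.Agent.S1964

/-!
# Discrete valuation rings dominating a henselian discrete valuation ring

`R` a strictly henselian discrete valuation ring with fraction field `K`, `R'` a discrete valuation ring dominating
`R` whose fraction field is finite separable over `K`: then `R'` is integral over `R`, hence strictly henselian.
-/

set_option autoImplicit false
universe u

namespace Groth.Agent.Sga7.H734.IntExt

open IsLocalRing

variable (R K R' K' : Type u) [CommRing R] [IsDomain R] [IsDiscreteValuationRing R] [HenselianLocalRing R]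
  [IsSepClosed (ResidueField R)]
  [Field K] [Algebra R K] [IsFractionRing R K] [CommRing R'] [IsDomain R'] [IsDiscreteValuationRing R']
  [Field K'] [Algebra R' K'] [IsFractionRing R' K'] [Algebra R R'] [IsLocalHom (algebraMap R R')]
  [Algebra K K'] [Algebra R K'] [IsScalarTower R K K'] [IsScalarTower R R' K'] [FiniteDimensional K K']
  [Algebra.IsSeparable K K']

include K K' in
theorem isIntegral : Algebra.IsIntegral R R' := by
  refine ⟨fun y => ?_⟩
  by_cases hy : y = 0
  · rw [hy]; exact isIntegral_zero
  have hR : EtCoh.IsStrictlyHenselianLocalRing R := ⟨inferInstance, inferInstance⟩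
  have hloc : IsLocalRing (integralClosure R K') := Sga4h.TameExt.isLocalRing R K' hR
  have hdvr : IsDiscreteValuationRing (integralClosure R K') := Sga4h.TameExt.isDiscreteValuationRing R K K' hR
  have hfr : IsFractionRing (integralClosure R K') K' := Sga4h.TameExt.isFractionRing R K K'
  have hinj : Function.Injective (algebraMap R' K') := IsFractionRing.injective R' K'
  have hii : ∀ z : integralClosure R K', ∃ w : R', algebraMap R' K' w = (z : K') := by
    intro z
    have h1 : IsIntegral R' (z : K') := IsIntegral.tower_top z.2
    exact IsIntegrallyClosed.isIntegral_iff.1 h1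
  have key : ∀ z : integralClosure R K', (algebraMap (integralClosure R K') K' z) = algebraMap R' K' y →
      IsIntegral R y := by
    intro z hz
    have h1 : IsIntegral R (algebraMap R' K' y) := by
      rw [← hz]; exact z.2
    exact (isIntegral_algebraMap_iff hinj).1 h1
  rcases ValuationRing.isInteger_or_isInteger (integralClosure R K') (algebraMap R' K' y) with ⟨z, hz⟩ | ⟨z, hz⟩
  · exact key z hz
  · rcases Groth.Agent.S1964.isUnit_or_pow_mem R (integralClosure R K') z with hu | ⟨d, hd⟩
    · obtain ⟨v, hv⟩ := hu
      refine key ((v⁻¹ : (integralClosure R K')ˣ) : integralClosure R K') ?_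
      have h1 : algebraMap (integralClosure R K') K' z *
          algebraMap (integralClosure R K') K' ((v⁻¹ : (integralClosure R K')ˣ) : integralClosure R K') = 1 := by
        rw [← map_mul, ← hv, Units.mul_inv, map_one]
      rw [hz] at h1
      rw [inv_mul_eq_one₀] at h1
      · exact h1.symm
      · rintro h2
        rw [h2, inv_zero, zero_mul] at h1
        exact zero_ne_one h1
    · exfalso
      have hmem : ∀ x ∈ (maximalIdeal R).map (algebraMap R (integralClosure R K')),
          ∃ w ∈ maximalIdeal R', algebraMap R' K' w = (x : K') := by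
        intro x hx
        refine Submodule.span_induction (p := fun (x : integralClosure R K') _ =>
          ∃ w ∈ maximalIdeal R', algebraMap R' K' w = (x : K')) ?_ ?_ ?_ ?_ hx
        · rintro _ ⟨r, hr, rfl⟩
          refine ⟨algebraMap R R' r, ?_, ?_⟩
          · exact (mem_maximalIdeal _).2 ((map_mem_nonunits_iff (algebraMap R R') r).2 ((mem_maximalIdeal r).1 hr))
          · rw [← IsScalarTower.algebraMap_apply R R' K']
            rfl
        · exact ⟨0, Ideal.zero_mem _, by rw [map_zero]; rfl⟩
        · rintro a b _ _ ⟨w, hw, hw'⟩ ⟨w', hw1, hw1'⟩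
          exact ⟨w + w', Ideal.add_mem _ hw hw1, by rw [map_add, hw', hw1']; rfl⟩
        · rintro a b _ ⟨w, hw, hw'⟩
          obtain ⟨c, hc⟩ := hii a
          exact ⟨c * w, Ideal.mul_mem_left _ _ hw, by rw [map_mul, hc, hw']; rfl⟩
      obtain ⟨w, hw, hw'⟩ := hmem _ hd
      have h2 : w * y ^ d = 1 := by
        apply hinj
        rw [map_mul, hw', map_pow, map_one]
        have h3 : ((z ^ d : integralClosure R K') : K') = (algebraMap R' K' y)⁻¹ ^ d := by
          rw [← hz]; rfl
        rw [h3, inv_pow]
        exact inv_mul_cancel₀ (pow_ne_zero _ (fun h4 => hy (hinj (by rw [h4, map_zero]))))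
      exact (mem_maximalIdeal w).1 hw (IsUnit.of_mul_eq_one _ h2)

include R K K' in
/-- `R'` is strictly henselian. -/
theorem strictlyHenselian : ∃ _ : HenselianLocalRing R', IsSepClosed (ResidueField R') := by
  have h1 := isIntegral R K R' K'
  obtain ⟨h3, h4, h5⟩ := Groth.Agent.S1964.result R R'
  exact ⟨h3, (h5 inferInstance).1⟩

end Groth.Agent.Sga7.H734.IntExt
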